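import Cfsg.Agent.H581.SimsE
set_option linter.all false

/-!
# Sims' theorem: groups with `H / O₂(H)` dihedral

`dihedral_final`: the form of Sims' theorem for a subgroup `H` with `H / O₂(H)` dihedral of order at least 4, `P` a Sylow
2-subgroup of `H` and an element `y` normalising `P`.
-/

set_option autoImplicit false

open Pointwise

namespace Cfsg.Agent.H581.Sims

theorem mem_normalizer_of_conj_smul_eq {G : Type*} [Group G] {X : Subgroup G} {x : G}
    (h : MulAut.conj x • X = X) : x ∈ Subgroup.normalizer (X : Set G) := by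
  rw [Subgroup.mem_normalizer_iff'']
  intro y
  conv_lhs => rw [← h]
  rw [Subgroup.mem_pointwise_smul_iff_inv_smul_mem, ← map_inv, MulAut.smul_def, MulAut.conj_apply, inv_inv]

theorem conj_smul_eq_of_mem {G : Type*} [Group G] {X : Subgroup G} {x : G}
    (h : x ∈ Subgroup.normalizer (X : Set G)) : MulAut.conj x • X = X := by
  ext y
  rw [Subgroup.mem_pointwise_smul_iff_inv_smul_mem, ← map_inv, MulAut.smul_def, MulAut.conj_apply, inv_inv]
  exact (Subgroup.mem_normalizer_iff''.1 h y).symm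

/-- A dihedral group `D_n` with `n ≥ 2` and trivial 2-core has `n` odd. -/
theorem odd_of_core {n : ℕ} (hn : 2 ≤ n) (h : Cfsg.pCore 2 (DihedralGroup n) = ⊥) : Odd n := by
  by_contra hcon
  rw [Nat.not_odd_iff_even] at hcon
  obtain ⟨m, hm⟩ := hcon
  have : NeZero n := ⟨by omega⟩
  have hmm : ((m : ZMod n) + m) = 0 := by
    rw [← Nat.cast_add, ← hm, ZMod.natCast_self]
  have hsq : (DihedralGroup.r (m : ZMod n)) * DihedralGroup.r (m : ZMod n) = 1 := by
    rw [DihedralGroup.r_mul_r, hmm]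
    rfl
  have hne : (DihedralGroup.r (m : ZMod n)) ≠ 1 := by
    intro h1
    have h2 : DihedralGroup.r (m : ZMod n) = DihedralGroup.r 0 := h1
    have h3 : (m : ZMod n) = 0 := DihedralGroup.r.inj h2
    rw [ZMod.natCast_eq_zero_iff] at h3
    have := Nat.le_of_dvd (by omega) h3
    omega
  have hneg : -(m : ZMod n) = m := neg_eq_of_add_eq_zero_left hmm
  have hcen : ∀ y : DihedralGroup n, y * DihedralGroup.r (m : ZMod n) * y⁻¹ = DihedralGroup.r (m : ZMod n) := by
    intro y
    rcases y with i | i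
    · rw [DihedralGroup.r_mul_r, DihedralGroup.inv_r, DihedralGroup.r_mul_r]
      congr 1
      ring
    · rw [DihedralGroup.sr_mul_r, DihedralGroup.inv_sr, DihedralGroup.sr_mul_sr]
      congr 1
      rw [show i - (i + (m : ZMod n)) = -(m : ZMod n) by ring, hneg]
  have hnorm : (Subgroup.zpowers (DihedralGroup.r (m : ZMod n))).Normal := by
    refine normal_zpowers_of_gen (S := Set.univ) Subgroup.closure_univ fun y _ => Or.inl (hcen y)
  have hp : IsPGroup 2 (Subgroup.zpowers (DihedralGroup.r (m : ZMod n))) := by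
    rw [IsPGroup.iff_card]
    exact ⟨1, by rw [Nat.card_zpowers, pow_one]; exact orderOf_eq_prime (by rw [pow_two, hsq]) hne⟩
  have h1 := Lib.Cores.le_pCore hnorm hp
  rw [h, Subgroup.zpowers_le, Subgroup.mem_bot] at h1
  exact hne h1

/-- Two adjacent reflections generate a dihedral group `D_n`, `n` odd. -/
theorem gen_dihedral {n : ℕ} (hodd : Odd n) (Y : Subgroup (DihedralGroup n)) (i : ZMod n)
    (h1 : DihedralGroup.sr i ∈ Y) (h2 : DihedralGroup.sr (i - 2) ∈ Y) : Y = ⊤ := by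
  have h3 : DihedralGroup.r (2 : ZMod n) ∈ Y := by
    have := Y.mul_mem h2 h1
    rw [DihedralGroup.sr_mul_sr] at this
    have e : i - (i - 2) = 2 := by ring
    rwa [e] at this
  have h4 : DihedralGroup.r (1 : ZMod n) ∈ Y := by
    obtain ⟨m, hm⟩ := hodd
    have h5 := Y.pow_mem h3 (m + 1)
    rw [DihedralGroup.r_pow] at h5
    have e : (2 : ZMod n) * ((m + 1 : ℕ) : ZMod n) = 1 := by
      have : ((2 * (m + 1) : ℕ) : ZMod n) = ((n + 1 : ℕ) : ZMod n) := by
        congr 1
        omega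
      push_cast at this ⊢
      rw [this, ZMod.natCast_self, zero_add]
    rwa [e] at h5
  have h6 : ∀ j : ZMod n, DihedralGroup.r j ∈ Y := by
    intro j
    obtain ⟨z, rfl⟩ := ZMod.intCast_surjective j
    have h7 := Y.zpow_mem h4 z
    rw [DihedralGroup.r_zpow, one_mul] at h7
    exact h7
  rw [eq_top_iff]
  rintro y -
  rcases y with j | j
  · exact h6 j
  · have h8 := Y.mul_mem h1 (h6 (j - i))
    rw [DihedralGroup.sr_mul_r] at h8
    have e : i + (j - i) = j := by ring
    rwa [e] at h8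

theorem exists_sr {n : ℕ} (hodd : Odd n) {s : DihedralGroup n} (hs : s * s = 1) (hs1 : s ≠ 1) :
    ∃ i, s = DihedralGroup.sr i := by
  rcases s with j | j
  · exfalso
    rw [DihedralGroup.r_mul_r] at hs
    have h1 : j + j = 0 := DihedralGroup.r.inj hs
    have h2 : j = 0 := by
      obtain ⟨m, hm⟩ := hodd
      have h3 : ((n : ℕ) : ZMod n) * j = 0 := by rw [ZMod.natCast_self, zero_mul]
      have h4 : ((n : ℕ) : ZMod n) * j = (m : ZMod n) * (j + j) + j := by
        conv_lhs => rw [show ((n : ℕ) : ZMod n) = ((2 * m + 1 : ℕ) : ZMod n) from by rw [← hm]]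
        push_cast
        ring
      rw [h3, h1, mul_zero, zero_add] at h4
      exact h4.symm
    apply hs1
    rw [h2]
    rfl
  · exact ⟨j, rfl⟩

theorem dihedral_setup {X : Type*} [Group X] [Finite X] {n : ℕ} (hn : 2 ≤ n) [hN : (Cfsg.pCore 2 X).Normal]
    (e : X ⧸ Cfsg.pCore 2 X ≃* DihedralGroup n) (P : Subgroup X) (hP : IsPGroup 2 P) (hidx : ¬ 2 ∣ P.index) :
    Odd n ∧ Cfsg.pCore 2 X ≤ P ∧ (Cfsg.pCore 2 X).relIndex P = 2 ∧
      ∃ k : X, P ⊔ MulAut.conj k • P = ⊤ ∧ (MulAut.conj k • P).relIndex P = 2 := by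
  have hfact : Fact (Nat.Prime 2) := ⟨Nat.prime_two⟩
  have : NeZero n := ⟨by omega⟩
  have hodd : Odd n := by
    refine odd_of_core hn ?_
    rw [← Lib.Cores.map_equiv_pCore e 2, Lib.Cores.pCore_quotient_pCore, Subgroup.map_bot]
  have hQP : Cfsg.pCore 2 X ≤ P := by
    have := Lib.Cores.pCore_le_sylow (hP.toSylow hidx)
    exact this
  let π : X →* DihedralGroup n := e.toMonoidHom.comp (QuotientGroup.mk' (Cfsg.pCore 2 X))
  have hπs : Function.Surjective π := e.surjective.comp (QuotientGroup.mk'_surjective _)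
  have hπker : π.ker = Cfsg.pCore 2 X := by
    ext y
    rw [MonoidHom.mem_ker]
    show e (QuotientGroup.mk' _ y) = 1 ↔ _
    rw [map_eq_one_iff e e.injective]
    exact QuotientGroup.eq_one_iff y
  have hcardD : Nat.card (DihedralGroup n) = 2 * n := DihedralGroup.nat_card
  -- the image of `P` has order 2
  have hrel : Nat.card (P.map π) = (Cfsg.pCore 2 X).relIndex P := by
    rw [← hπker, Subgroup.relIndex_ker]
  have hmapidx : ¬ 2 ∣ (P.map π).index := by
    intro h
    apply hidx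
    have h1 : (P.map π).index ∣ P.index := Subgroup.index_map_dvd P hπs
    exact h.trans h1
  have hmapP : IsPGroup 2 (P.map π) := hP.map π
  have hcard2 : Nat.card (P.map π) = 2 := by
    obtain ⟨j, hj⟩ := IsPGroup.iff_card.1 hmapP
    have h1 := Subgroup.card_mul_index (P.map π)
    rw [hcardD, hj] at h1
    obtain ⟨m, hm⟩ := hodd
    rcases j with _ | _ | j
    · exfalso
      rw [pow_zero, one_mul] at h1
      apply hmapidx
      rw [h1]
      exact dvd_mul_right _ _
    · rw [hj]; norm_num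
    · exfalso
      have h2 : 2 ^ (j + 1 + 1) * (P.map π).index = 4 * (2 ^ j * (P.map π).index) := by ring
      rw [h2] at h1
      omega
  obtain ⟨s, hs1, hs⟩ : ∃ s ∈ P.map π, s ≠ 1 ∧ s * s = 1 := by
    have h1 : Nontrivial (P.map π) := by
      rw [← Finite.one_lt_card_iff_nontrivial, hcard2]; norm_num
    obtain ⟨s, hs⟩ := exists_ne (1 : P.map π)
    refine ⟨s, s.2, fun h => hs (Subtype.ext h), ?_⟩
    have h2 : s ^ 2 = 1 := by
      rw [← hcard2]
      exact pow_card_eq_one'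
    rw [pow_two] at h2
    exact congrArg Subtype.val h2
  obtain ⟨i, rfl⟩ := exists_sr hodd hs.2 hs.1
  obtain ⟨p0, hp0, hp0s⟩ := hs1
  obtain ⟨k, hk⟩ := hπs (DihedralGroup.r 1)
  have hgen : P ⊔ MulAut.conj k • P = ⊤ := by
    have h1 : (P ⊔ MulAut.conj k • P).map π = ⊤ := by
      refine gen_dihedral hodd _ i ⟨p0, Subgroup.mem_sup_left hp0, hp0s⟩ ?_
      refine ⟨k * p0 * k⁻¹, Subgroup.mem_sup_right ⟨p0, hp0, rfl⟩, ?_⟩
      rw [map_mul, map_mul, map_inv, hk, hp0s, DihedralGroup.r_mul_sr, DihedralGroup.inv_r, DihedralGroup.sr_mul_r]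
      congr 1
      ring
    have h2 : π.ker ≤ P ⊔ MulAut.conj k • P := by
      rw [hπker]
      exact hQP.trans le_sup_left
    rw [← Subgroup.comap_map_eq_self h2, h1, Subgroup.comap_top]
  have hQk : Cfsg.pCore 2 X ≤ MulAut.conj k • P := by
    have h1 := Subgroup.pointwise_smul_le_pointwise_smul_iff (a := MulAut.conj k) |>.2 hQP
    have h2 : MulAut.conj k • Cfsg.pCore 2 X = Cfsg.pCore 2 X := by
      refine conj_smul_eq_of_mem ?_
      rw [Subgroup.normalizer_eq_top]
      trivial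
    rwa [h2] at h1
  refine ⟨hodd, hQP, by rw [← hrel, hcard2], k, hgen, ?_⟩
  have h3 : (MulAut.conj k • P).relIndex P ∣ 2 := by
    rw [← hcard2, hrel]
    exact Subgroup.relIndex_dvd_of_le_left P hQk
  rcases (Nat.dvd_prime Nat.prime_two).1 h3 with h4 | h4
  · exfalso
    rw [Subgroup.relIndex_eq_one] at h4
    have h5 : MulAut.conj k • P = P := (Subgroup.eq_of_le_of_card_ge h4 (card_conj k P).le).symm
    rw [h5, sup_idem] at hgen
    rw [hgen, Subgroup.map_top_of_surjective π hπs, Subgroup.card_top, hcardD] at hcard2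
    omega
  · exact h4

theorem map_conj {G : Type*} [Group G] {H : Subgroup G} (k : H) (A : Subgroup H) :
    (MulAut.conj k • A).map H.subtype = MulAut.conj (k : G) • A.map H.subtype := by
  ext y
  constructor
  · rintro ⟨_, ⟨z, hz, rfl⟩, rfl⟩
    exact ⟨z, ⟨z, hz, rfl⟩, rfl⟩
  · rintro ⟨_, ⟨z, hz, rfl⟩, rfl⟩
    exact ⟨k * z * k⁻¹, ⟨z, hz, rfl⟩, rfl⟩

/-- **Sims' theorem for `H / O₂(H)` dihedral.** -/
theorem dihedral_final {G : Type*} [Group G] [Finite G] (H : Subgroup G) (n : ℕ) (hn : 2 ≤ n)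
    [hN : (Cfsg.pCore 2 ↥H).Normal] (hdih : Nonempty (↥H ⧸ Cfsg.pCore 2 ↥H ≃* DihedralGroup n))
    (P : Subgroup G) (hPH : P ≤ H) (hP : IsPGroup 2 P) (hPsyl : ¬ 2 ∣ P.relIndex H) (y : G)
    (hyN : MulAut.conj y • P = P)
    (hU : ∀ X : Subgroup G, X ≤ P → H ≤ Subgroup.normalizer (X : Set G) →
      MulAut.conj y • H ≤ Subgroup.normalizer (X : Set G) → X = ⊥) :
    Odd n ∧ Nat.card P = 2 * Nat.card (Cfsg.pCore 2 ↥H) ∧
    (Nat.card P = 2 ∨
    (Nat.card P = 4 ∧ Nonempty (↥H ⧸ Cfsg.oddCore ↥H ≃* Multiplicative (ZMod 2) × Multiplicative (ZMod 2))) ∨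
    (Nat.card P = 8 ∧ Nonempty (↥H ⧸ Cfsg.oddCore ↥H ≃* Equiv.Perm (Fin 4))) ∨
    (Nat.card P = 16 ∧ Nonempty (↥H ⧸ Cfsg.oddCore ↥H ≃* Equiv.Perm (Fin 4) × Multiplicative (ZMod 2)))) := by
  obtain ⟨e⟩ := hdih
  have hP' : IsPGroup 2 (P.subgroupOf H) := hP.comap_of_injective H.subtype H.subtype_injective
  obtain ⟨hodd, hQP, hrel, k, hgen, hk2⟩ := dihedral_setup hn e (P.subgroupOf H) hP' hPsyl
  have hPmap : (P.subgroupOf H).map H.subtype = P := by rw [Subgroup.subgroupOf_map_subtype, inf_eq_left.2 hPH]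
  have hcardP : Nat.card P = 2 * Nat.card (Cfsg.pCore 2 ↥H) := by
    have h1 := card_mul_relIndex hQP
    rw [hrel] at h1
    rw [mul_comm, h1]
    exact (Nat.card_congr (Subgroup.subgroupOfEquivOfLe hPH).toEquiv).symm
  refine ⟨hodd, hcardP, ?_⟩
  have hk : MulAut.conj ((k : G) * y) • P = MulAut.conj (k : G) • P := by
    rw [map_mul, ← smul_smul, hyN]
  have hH : H = P ⊔ MulAut.conj ((k : G) * y) • P := by
    rw [hk]
    conv_rhs => rw [← hPmap, ← map_conj, ← Subgroup.map_sup, hgen, ← MonoidHom.range_eq_map, Subgroup.range_subtype]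
  have h2 : (MulAut.conj ((k : G) * y) • P).relIndex P = 2 := by
    rw [hk]
    conv_lhs => rw [← hPmap, ← map_conj]
    rw [Subgroup.relIndex_map_map_of_injective _ _ H.subtype_injective]
    exact hk2
  refine final P ((k : G) * y) H hH h2 ?_ hPsyl
  intro X hX hHX hyX
  refine hU X hX hHX ?_
  rw [map_mul, ← smul_smul] at hyX
  have h3 := Subgroup.pointwise_smul_le_pointwise_smul_iff (a := MulAut.conj (k : G)⁻¹) |>.2 hyX
  have h4 : MulAut.conj (k : G)⁻¹ • Subgroup.normalizer (X : Set G) = Subgroup.normalizer (X : Set G) := by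
    rw [smul_normalizer, conj_smul_eq_of_mem (inv_mem (hHX k.2))]
  rwa [h4, smul_smul, ← map_mul, inv_mul_cancel, map_one, one_smul] at h3

end Cfsg.Agent.H581.Sims
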